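import Mathlib

/-!
Number theory for the graph automorphisms of `SL_7(q)` and `SL_8(q)`: `(q^n - 1)/(q - 1)` does not divide
`(q - 1) (q^i + p^j)`, `n = 7, 8`, `q` a power of the prime `p`.
-/

set_option autoImplicit false

namespace Cfsg.Agent.H622.Van

/-- the two-parts of the exponents with value `-1` -/
theorem not_dvd_of_pow_neg {R : Type*} [Ring R] (h : (-1 : R) ≠ 1) {x : R} {s u v : ℕ} (hu : Odd u)
    (h1 : x ^ (2 ^ s * u) = -1) (h2 : x ^ v = -1) : ¬ 2 ^ (s + 1) ∣ v := by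
  rintro ⟨w, rfl⟩
  apply h
  have e1 : x ^ (2 ^ (s + 1) * w * u) = -1 := by rw [pow_mul, h2, hu.neg_one_pow]
  have e2 : x ^ (2 ^ (s + 1) * w * u) = 1 := by
    have : 2 ^ (s + 1) * w * u = (2 ^ s * u) * (2 * w) := by ring
    rw [this, pow_mul, h1, pow_mul, neg_one_sq, one_pow]
  rw [← e1, e2]

/-- a number larger than two and not divisible by four has an odd prime divisor -/
theorem exists_odd_prime {N : ℕ} (h2 : 2 < N) (h4 : ¬ 4 ∣ N) : ∃ l : ℕ, l.Prime ∧ l ≠ 2 ∧ l ∣ N := by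
  by_contra hno
  push Not at hno
  have hall : ∀ l : ℕ, l.Prime → l ∣ N → l = 2 := by
    intro l hl hd
    by_contra h
    exact hno l hl h hd
  have h1 : N = 2 ^ N.primeFactorsList.length := by
    refine Nat.eq_prime_pow_of_unique_prime_dvd (by omega) ?_
    intro l hl hd
    exact hall l hl hd
  set k := N.primeFactorsList.length
  have hk : 2 ≤ k := by
    by_contra hk
    have : k = 0 ∨ k = 1 := by omega
    rcases this with h0 | h0 <;> rw [h0] at h1 <;> norm_num at h1 <;> omega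
  apply h4
  rw [h1]
  exact pow_dvd_pow 2 hk

theorem neg_one_ne {l : ℕ} (hl : l.Prime) (h2 : l ≠ 2) : (-1 : ZMod l) ≠ 1 := by
  intro h
  have h1 : ((2 : ℕ) : ZMod l) = 0 := by push_cast; linear_combination -h
  rw [ZMod.natCast_eq_zero_iff] at h1
  exact h2 ((Nat.prime_dvd_prime_iff_eq hl Nat.prime_two).1 h1)

/-- the exponents `k` with `p ^ k = -1` from `q ^ i + p ^ j = 0` -/
theorem exists_exp {p f q : ℕ} (hq : q = p ^ f) (i j : ℕ) :
    ∃ k : ℕ, ∀ l : ℕ, l.Prime → ¬ l ∣ p → ((q : ZMod l)) ^ i + (p : ZMod l) ^ j = 0 → (p : ZMod l) ^ k = -1 := by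
  rcases le_total (f * i) j with h | h
  · refine ⟨j - f * i, fun l hl hp h0 => ?_⟩
    have : Fact l.Prime := ⟨hl⟩
    have hp0 : (p : ZMod l) ≠ 0 := by rwa [Ne, ZMod.natCast_eq_zero_iff]
    obtain ⟨d, rfl⟩ := Nat.exists_eq_add_of_le h
    rw [hq] at h0
    push_cast at h0
    rw [← pow_mul, pow_add] at h0
    have h1 : (p : ZMod l) ^ (f * i) * ((p : ZMod l) ^ d + 1) = 0 := by linear_combination h0
    rcases mul_eq_zero.1 h1 with h2 | h2
    · exact absurd h2 (pow_ne_zero _ hp0)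
    · rw [Nat.add_sub_cancel_left]
      linear_combination h2
  · refine ⟨f * i - j, fun l hl hp h0 => ?_⟩
    have : Fact l.Prime := ⟨hl⟩
    have hp0 : (p : ZMod l) ≠ 0 := by rwa [Ne, ZMod.natCast_eq_zero_iff]
    obtain ⟨d, hd⟩ := Nat.exists_eq_add_of_le h
    rw [hq] at h0
    push_cast at h0
    rw [← pow_mul, hd, pow_add] at h0
    have h1 : (p : ZMod l) ^ j * ((p : ZMod l) ^ d + 1) = 0 := by linear_combination h0
    rcases mul_eq_zero.1 h1 with h2 | h2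
    · exact absurd h2 (pow_ne_zero _ hp0)
    · rw [hd, Nat.add_sub_cancel_left]
      linear_combination h2

/-- **`n = 8`.** -/
theorem ns8 {p f q : ℕ} (hp : p.Prime) (hf : 0 < f) (hq : q = p ^ f) (i j : ℕ) :
    ¬ (∑ a ∈ Finset.range 8, q ^ a) ∣ (q - 1) * (q ^ i + p ^ j) := by
  intro hd
  have hq2 : 2 ≤ q := by
    rw [hq]
    have := Nat.one_lt_pow hf.ne' hp.one_lt
    omega
  obtain ⟨k, hk⟩ := exists_exp hq i j
  -- the factors
  have hsum : ∑ a ∈ Finset.range 8, q ^ a = (q + 1) * (q ^ 2 + 1) * (q ^ 4 + 1) := by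
    simp only [Finset.sum_range_succ, Finset.sum_range_zero]
    ring
  have hsq : ∀ m : ℕ, ¬ 4 ∣ m ^ 2 + 1 := by
    intro m h
    rcases Nat.even_or_odd' m with ⟨c, rfl | rfl⟩
    · have : (2 * c) ^ 2 + 1 = 4 * c ^ 2 + 1 := by ring
      omega
    · have : (2 * c + 1) ^ 2 + 1 = 4 * (c ^ 2 + c) + 2 := by ring
      omega
  have key : ∀ l : ℕ, l.Prime → l ≠ 2 → ∀ e : ℕ, e ≠ 0 → l ∣ q ^ e + 1 → l ∣ (q - 1) * (q ^ i + p ^ j) →
      ((p : ZMod l)) ^ (f * e) = -1 ∧ (p : ZMod l) ^ k = -1 := by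
    intro l hl h2 e he h3 h4
    have : Fact l.Prime := ⟨hl⟩
    have h5 : ((q : ZMod l)) ^ e = -1 := by
      have : ((q ^ e + 1 : ℕ) : ZMod l) = 0 := (ZMod.natCast_eq_zero_iff _ _).2 h3
      push_cast at this
      linear_combination this
    have hlp : ¬ l ∣ p := by
      intro h6
      have h7 : l ∣ q ^ e := by
        rw [hq, ← pow_mul]
        exact dvd_pow h6 (Nat.mul_ne_zero hf.ne' he)
      have h8 := (Nat.dvd_add_right h7).1 h3
      exact hl.one_lt.ne' (Nat.dvd_one.1 h8)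
    refine ⟨?_, hk l hl hlp ?_⟩
    · rw [pow_mul, ← h5, hq]
      push_cast
      rfl
    · rcases hl.dvd_mul.1 h4 with h6 | h6
      · exfalso
        have h7 : (q : ZMod l) = 1 := by
          have : ((q - 1 : ℕ) : ZMod l) = 0 := (ZMod.natCast_eq_zero_iff _ _).2 h6
          rw [Nat.cast_sub (by omega), Nat.cast_one, sub_eq_zero] at this
          exact this
        rw [h7, one_pow] at h5
        exact neg_one_ne hl h2 h5.symm
      · have : ((q ^ i + p ^ j : ℕ) : ZMod l) = 0 := (ZMod.natCast_eq_zero_iff _ _).2 h6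
        push_cast at this
        exact this
  obtain ⟨l, hl, hl2, hld⟩ := exists_odd_prime (N := q ^ 4 + 1) (by nlinarith [Nat.pow_le_pow_left hq2 4]) (by
    have := hsq (q ^ 2)
    rwa [← pow_mul] at this)
  obtain ⟨l', hl', hl2', hld'⟩ := exists_odd_prime (N := q ^ 2 + 1) (by nlinarith) (hsq q)
  obtain ⟨a1, a2⟩ := key l hl hl2 4 (by norm_num) hld ((hld.trans (by rw [hsum]; exact Dvd.intro_left _ rfl)).trans hd)
  obtain ⟨b1, b2⟩ := key l' hl' hl2' 2 (by norm_num) hld'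
    ((hld'.trans (by rw [hsum]; exact Dvd.dvd.mul_right (Dvd.intro_left _ rfl) _)).trans hd)
  obtain ⟨b, f', hf', e1⟩ := Nat.exists_eq_two_pow_mul_odd hf.ne'
  have hk0 : k ≠ 0 := by
    rintro rfl
    rw [pow_zero] at a2
    exact neg_one_ne hl hl2 a2.symm
  obtain ⟨c, k', hk', e2⟩ := Nat.exists_eq_two_pow_mul_odd hk0
  -- `2 ^ (b + 2) ∤ k`
  have h1 : ¬ 2 ^ (b + 1 + 1) ∣ k := not_dvd_of_pow_neg (neg_one_ne hl' hl2') (x := (p : ZMod l')) (s := b + 1)
    (u := f') hf' (by rw [← b1]; congr 1; rw [e1]; ring) b2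
  -- `2 ^ (c + 1) ∤ 4 f`
  have h2 : ¬ 2 ^ (c + 1) ∣ f * 4 := not_dvd_of_pow_neg (neg_one_ne hl hl2) (x := (p : ZMod l)) (s := c)
    (u := k') hk' (by rw [← e2]; exact a2) a1
  rcases le_or_gt (b + 2) c with h3 | h3
  · apply h1
    rw [e2]
    exact Dvd.dvd.mul_right (pow_dvd_pow 2 h3) _
  · apply h2
    have : f * 4 = 2 ^ (b + 2) * f' := by rw [e1]; ring
    rw [this]
    exact Dvd.dvd.mul_right (pow_dvd_pow 2 (by omega)) _

theorem not_49 : ∀ x : ZMod 49, 1 + x + x ^ 2 + x ^ 3 + x ^ 4 + x ^ 5 + x ^ 6 ≠ 0 := by decide +kernel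

/-- a prime divisor other than `2`, `7` of `1 + x + ... + x^6` -/
theorem exists_prime_dvd7 {x : ℕ} (hx : 2 ≤ x) :
    ∃ l : ℕ, l.Prime ∧ l ≠ 7 ∧ l ≠ 2 ∧ l ∣ 1 + x + x ^ 2 + x ^ 3 + x ^ 4 + x ^ 5 + x ^ 6 := by
  have hodd : ¬ 2 ∣ 1 + x + x ^ 2 + x ^ 3 + x ^ 4 + x ^ 5 + x ^ 6 := by
    intro h
    rcases Nat.even_or_odd' x with ⟨c, hc | hc⟩
    · have e : 1 + x + x ^ 2 + x ^ 3 + x ^ 4 + x ^ 5 + x ^ 6 =
          1 + 2 * (c * (1 + x + x ^ 2 + x ^ 3 + x ^ 4 + x ^ 5)) := by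
        have : 2 * (c * (1 + x + x ^ 2 + x ^ 3 + x ^ 4 + x ^ 5)) = x * (1 + x + x ^ 2 + x ^ 3 + x ^ 4 + x ^ 5) := by
          conv_rhs => rw [hc]
          ring_nf
          rw [hc]; ring
        rw [this]; ring
      omega
    · have e : 1 + x + x ^ 2 + x ^ 3 + x ^ 4 + x ^ 5 + x ^ 6 = 1 + (x + 1) * (x + x ^ 3 + x ^ 5) := by ring
      have e2 : (x + 1) * (x + x ^ 3 + x ^ 5) = 2 * ((c + 1) * (x + x ^ 3 + x ^ 5)) := by
        rw [hc]; ring
      omega
  have h49 : ¬ 49 ∣ 1 + x + x ^ 2 + x ^ 3 + x ^ 4 + x ^ 5 + x ^ 6 := by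
    intro h
    refine not_49 (x : ZMod 49) ?_
    have := (ZMod.natCast_eq_zero_iff (1 + x + x ^ 2 + x ^ 3 + x ^ 4 + x ^ 5 + x ^ 6) 49).2 h
    push_cast at this
    exact this
  by_contra hno
  push Not at hno
  set N := 1 + x + x ^ 2 + x ^ 3 + x ^ 4 + x ^ 5 + x ^ 6 with hN
  have hall : ∀ l : ℕ, l.Prime → l ∣ N → l = 7 := by
    intro l hl hd
    by_contra h3
    have h2 : l ≠ 2 := by rintro rfl; exact hodd hd
    exact hno l hl h3 h2 hd
  have h1 : N = 7 ^ N.primeFactorsList.length := by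
    refine Nat.eq_prime_pow_of_unique_prime_dvd (by omega) ?_
    intro l hl hd
    exact hall l hl hd
  have h7 : 8 ≤ N := by
    have a2 : 4 ≤ x ^ 2 := by nlinarith
    have a3 : 8 ≤ x ^ 3 := by
      calc 8 = 2 ^ 3 := by norm_num
        _ ≤ x ^ 3 := Nat.pow_le_pow_left hx 3
    omega
  set k := N.primeFactorsList.length
  have hk : 2 ≤ k := by
    by_contra hk
    have : k = 0 ∨ k = 1 := by omega
    rcases this with h0 | h0 <;> rw [h0] at h1 <;> norm_num at h1 <;> omega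
  apply h49
  rw [h1]
  exact pow_dvd_pow 7 hk

/-- **`n = 7`.** -/
theorem ns7 {p f q : ℕ} (hp : p.Prime) (hf : 0 < f) (hq : q = p ^ f) (i j : ℕ) :
    ¬ (∑ a ∈ Finset.range 7, q ^ a) ∣ (q - 1) * (q ^ i + p ^ j) := by
  intro hdiv
  obtain ⟨b, f', hf', rfl⟩ := Nat.exists_eq_two_pow_mul_odd hf.ne'
  have hf0 : f' ≠ 0 := by rintro rfl; exact absurd hf' (by decide)
  have hx : 2 ≤ p ^ f' := by
    have := Nat.one_lt_pow hf0 hp.one_lt
    omega
  have hq2 : 2 ≤ q := by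
    rw [hq]
    have := Nat.one_lt_pow hf.ne' hp.one_lt
    omega
  obtain ⟨l, hl, h7, h2, hd⟩ := exists_prime_dvd7 hx
  have : Fact l.Prime := ⟨hl⟩
  let x : ZMod l := ((p ^ f' : ℕ) : ZMod l)
  have hx1 : 1 + x + x ^ 2 + x ^ 3 + x ^ 4 + x ^ 5 + x ^ 6 = 0 := by
    have h4 := (ZMod.natCast_eq_zero_iff _ l).2 hd
    push_cast at h4
    change 1 + ((p ^ f' : ℕ) : ZMod l) + ((p ^ f' : ℕ) : ZMod l) ^ 2 + ((p ^ f' : ℕ) : ZMod l) ^ 3 +
      ((p ^ f' : ℕ) : ZMod l) ^ 4 + ((p ^ f' : ℕ) : ZMod l) ^ 5 + ((p ^ f' : ℕ) : ZMod l) ^ 6 = 0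
    push_cast
    exact h4
  have hx7 : x ^ 7 = 1 := by linear_combination (x - 1) * hx1
  have hxne : x ≠ 1 := by
    intro h
    rw [h] at hx1
    have h5 : ((7 : ℕ) : ZMod l) = 0 := by push_cast; linear_combination hx1
    rw [ZMod.natCast_eq_zero_iff] at h5
    exact h7 ((Nat.prime_dvd_prime_iff_eq hl (by norm_num)).1 h5)
  have hqx : (q : ZMod l) = x ^ 2 ^ b := by
    rw [hq, mul_comm, pow_mul]
    push_cast
    change _ = ((p ^ f' : ℕ) : ZMod l) ^ 2 ^ b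
    push_cast
    rfl
  have hq7 : (q : ZMod l) ^ 7 = 1 := by
    rw [hqx, ← pow_mul, mul_comm, pow_mul, hx7, one_pow]
  have hqne : (q : ZMod l) ≠ 1 := by
    intro h
    apply hxne
    rw [hqx] at h
    have h8 : orderOf x ∣ 2 ^ b := orderOf_dvd_of_pow_eq_one h
    have h9 : orderOf x ∣ 7 := orderOf_dvd_of_pow_eq_one hx7
    have h10 : Nat.gcd (2 ^ b) 7 = 1 := Nat.Coprime.pow_left b (by norm_num)
    have h11 := Nat.dvd_gcd h8 h9
    rw [h10, Nat.dvd_one] at h11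
    exact orderOf_eq_one_iff.1 h11
  have hqs : ∑ a ∈ Finset.range 7, (q : ZMod l) ^ a = 0 := by
    have h8 : (∑ a ∈ Finset.range 7, (q : ZMod l) ^ a) * ((q : ZMod l) - 1) = 0 := by
      rw [geom_sum_mul, hq7, sub_self]
    exact (mul_eq_zero.1 h8).resolve_right (sub_ne_zero.2 hqne)
  have hld : l ∣ ∑ a ∈ Finset.range 7, q ^ a := by
    rw [← ZMod.natCast_eq_zero_iff]
    push_cast
    exact hqs
  have h3 : ((q : ZMod l)) ^ i + (p : ZMod l) ^ j = 0 := by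
    rcases hl.dvd_mul.1 (hld.trans hdiv) with h6 | h6
    · exfalso
      apply hqne
      have : ((q - 1 : ℕ) : ZMod l) = 0 := (ZMod.natCast_eq_zero_iff _ _).2 h6
      rw [Nat.cast_sub (by omega), Nat.cast_one, sub_eq_zero] at this
      exact this
    · have : ((q ^ i + p ^ j : ℕ) : ZMod l) = 0 := (ZMod.natCast_eq_zero_iff _ _).2 h6
      push_cast at this
      exact this
  have h4 : ((p : ZMod l)) ^ j = -(q : ZMod l) ^ i := by linear_combination h3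
  have h5 := congrArg (fun y => y ^ (7 * f')) h4
  change ((p : ZMod l) ^ j) ^ (7 * f') = (-(q : ZMod l) ^ i) ^ (7 * f') at h5
  have ho : Odd (7 * f') := by
    rw [Nat.odd_mul]; exact ⟨by decide, hf'⟩
  rw [ho.neg_pow] at h5
  have e1 : ((p : ZMod l) ^ j) ^ (7 * f') = 1 := by
    have : ((p : ZMod l) ^ j) ^ (7 * f') = (x ^ 7) ^ j := by
      change _ = (((p ^ f' : ℕ) : ZMod l) ^ 7) ^ j
      push_cast
      ring
    rw [this, hx7, one_pow]
  have e2 : ((q : ZMod l) ^ i) ^ (7 * f') = 1 := by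
    have : ((q : ZMod l) ^ i) ^ (7 * f') = ((q : ZMod l) ^ 7) ^ (i * f') := by ring
    rw [this, hq7, one_pow]
  rw [e1, e2] at h5
  exact neg_one_ne hl h2 h5.symm

end Cfsg.Agent.H622.Van
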