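import Cfsg.Agent.H622.Van.Chain
import Cfsg.Agent.H622.Van.Num
import Cfsg.Agent.H353.IMC.Rows
import Cfsg.Agent.H665.NoPQ
import Cfsg.Agent.H674.Codegree

/-!
# Characters of defect zero of `E₇(q)` and `E₈(q)`

* `e8_dz` : `HasDZ p` for `p ∤ q`, `p ∤ q² - 1`;
* `e7_dz` : `HasDZ p` for `p ∤ q`, `p ∤ q - 1`; `e7_dz_two` : `HasDZ 2` for `q ≡ 3 mod 4`.
-/

set_option autoImplicit false
set_option linter.unusedSectionVars false

open Cfsg

namespace Cfsg.Agent.H622.Van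

open Cfsg.Agent.H53.HC Cfsg.Agent.H53.HC.ExcRows Cfsg.Agent.H35.ExcIdx Cfsg.Agent.H35.PoinNum Cfsg.Agent.Characters
  Cfsg.Agent.H665.NoPQ Cfsg.Agent.H353.IMC
open CoxeterSystem Cfsg.Agent.ChevalleyStructure.CoxeterGeom Cfsg.Agent.Tits.Roots Cfsg.Agent.Tits.Core
  Cfsg.Agent.Tits.Exchange Cfsg.Agent.Nodes.Reps Cfsg.Agent.Nodes.BNOf Cfsg.Agent.Nodes.StabComb
  Cfsg.Agent.Nodes.Bruhat Cfsg.Agent.Nodes.OppDec Cfsg.Agent.Nodes.LeviDec

universe u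

/-- the engine -/
theorem hasDZ_of {S : Type*} [Group S] [Finite S] {χ : S → ℂ} (hχ : IsIrrCharacter S χ) {N x y p : ℕ}
    (hN : χ 1 = (N : ℂ)) (h : N * x = y * Nat.card S) (hx : x ≠ 0) (hy : y ≠ 0)
    (hxy : x.factorization p ≤ y.factorization p) : HasDZ p S := by
  have hdeg : charDegree χ = N := H670.PSing.charDegree_eq_of hN
  refine ⟨⟨χ, hχ⟩, ?_⟩
  change (charDegree χ).factorization p = _
  have hd : N ∣ Nat.card S := by
    rw [← hdeg]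
    exact H674.Codegree.charDegree_dvd_card hχ
  have hN0 : N ≠ 0 := by
    rintro rfl
    rw [zero_mul] at h
    exact (mul_ne_zero hy Nat.card_pos.ne') h.symm
  rw [hdeg]
  apply le_antisymm
  · exact (Nat.factorization_le_iff_dvd hN0 Nat.card_pos.ne').2 hd p
  · have h1 := congrArg (fun z => z.factorization p) h
    change (N * x).factorization p = (y * Nat.card S).factorization p at h1
    rw [Nat.factorization_mul hN0 hx, Nat.factorization_mul hy Nat.card_pos.ne', Finsupp.add_apply,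
      Finsupp.add_apply] at h1
    omega

theorem hasDZ_of' {S : Type*} [Group S] [Finite S] {χ : S → ℂ} (hχ : IsIrrCharacter S χ) {N x y p : ℕ}
    (hN : χ 1 = (N : ℂ)) (h : N * x = y * Nat.card S) (hy : y ≠ 0) (hx : ¬ p ∣ x) : HasDZ p S := by
  refine hasDZ_of hχ hN h ?_ hy ?_
  · rintro rfl
    exact hx (dvd_zero _)
  · rw [Nat.factorization_eq_zero_of_not_dvd hx]
    exact Nat.zero_le _

/-- `q ^ a ≡ 1` and `q ^ b ≡ 1` modulo `p` -/
theorem dvd_gcd_pow {p q a b : ℕ} (ha : p ∣ q ^ a - 1) (hb : p ∣ q ^ b - 1) : p ∣ q ^ Nat.gcd a b - 1 := by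
  have h2 := Nat.dvd_gcd ha hb
  rwa [Nat.pow_sub_one_gcd_pow_sub_one] at h2

theorem dvd_pow_of {p q d e : ℕ} (h : p ∣ q ^ d - 1) (hde : d ∣ e) : p ∣ q ^ e - 1 := by
  obtain ⟨c, rfl⟩ := hde
  rw [pow_mul]
  refine h.trans ?_
  have := Nat.sub_dvd_pow_sub_pow (q ^ d) 1 c
  rwa [one_pow] at this

/-- the chain `0, 2, 3, 4, 5, 6, 7` of `E₈` -/
def c8 : Fin 7 ↪ Fin 8 := ⟨![0, 2, 3, 4, 5, 6, 7], by decide⟩
/-- the chain `0, 2, 3, 4, 5, 6` of `E₇` -/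
def c7 : Fin 6 ↪ Fin 7 := ⟨![0, 2, 3, 4, 5, 6], by decide⟩

theorem hc8 : ∀ i j, m8 (c8 i) (c8 j) = mA 7 i j := by decide +kernel
theorem hc7 : ∀ i j, m7 (c7 i) (c7 j) = mA 6 i j := by decide +kernel

theorem mem_c8 : ∀ i, i ∈ Set.range c8 ↔ i ≠ 1 := by
  intro i
  rw [Set.mem_range]
  revert i; decide

theorem mem_c7 : ∀ i, i ∈ Set.range c7 ↔ i ≠ 1 := by
  intro i
  rw [Set.mem_range]
  revert i; decide

theorem range_c8 : Set.range c8 = {j | j ≠ 1} := Set.ext mem_c8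
theorem range_c7 : Set.range c7 = {j | j ≠ 1} := Set.ext mem_c7

/-- the kernel of the Cartan matrix modulo `8` -/
def z8 : Fin 8 → ℤ := ![1, 0, 2, 3, 4, 5, 6, 7]
/-- the kernel of the Cartan matrix modulo `7` -/
def z7 : Fin 7 → ℤ := ![1, 0, 2, 3, 4, 5, 6]

theorem z8_mod : ∀ c : Fin 8, c ≠ 1 → (8 : ℤ) ∣ ∑ i, z8 i * H505.Cop.E8Num.AE i c := by decide +kernel
theorem z7_mod : ∀ c : Fin 7, c ≠ 1 → (7 : ℤ) ∣ ∑ i, z7 i * H505.Cop.E7Num.AE i c := by decide +kernel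
theorem z8_not : ¬ (8 : ℤ) ∣ 2 * ∑ i, z8 i * H505.Cop.E8Num.AE i 1 := by decide +kernel
theorem z7_not : ¬ (7 : ℤ) ∣ 2 * ∑ i, z7 i * H505.Cop.E7Num.AE i 1 := by decide +kernel

section split

open Cfsg.Lie Cfsg.Agent.Nodes.RGDChev

variable {K : Type u} [Field K] [Fintype K] {r f : ℕ} (hr : r.Prime) (hf : f ≠ 0)
  (hK : Fintype.card K = r ^ f) [CharP K r] {p : ℕ} (hp : p.Prime)

include hK in
omit [CharP K r] in
theorem card_E8 : ∃ b : ℕ, Nat.card ↥(chevE8.group K) = r ^ b * pr (r ^ f) [2, 8, 12, 14, 18, 20, 24, 30] := by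
  refine ⟨f * 120, ?_⟩
  have h3 := Cfsg.Agent.S1065.result hK
  rw [pow_mul]
  simp only [pr_cons, pr_nil]
  rw [h3]
  ring

include hr hf in
theorem ns_of {n : ℕ} (hn : n = 7 ∨ n = 8) : NS n (r ^ f) := by
  intro p g hp hg hq i j
  rcases hn with rfl | rfl
  · exact ns7 hp hg hq i j
  · exact ns8 hp hg hq i j

include hr hf hK in
/-- the character of `E₈(q)` for `J = A₇` -/
theorem exists_e8 : ∃ χ : ↥(chevE8.group K) → ℂ, IsIrrCharacter _ χ ∧ ∃ N a t b : ℕ, 0 < a ∧ χ 1 = (N : ℂ) ∧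
    t ∣ r ^ f - 1 ∧ N * (t * ((r ^ f) ^ 8 - 1) * r ^ b) = a * Nat.card ↥(chevE8.group K) := by
  have := finite_group (K := K) chevE8
  have := Fintype.ofFinite ↥(chevE8.group K)
  have D := data_E8_3 hr hf hK
  have := D.fin
  obtain ⟨b, hb⟩ := card_E8 (r := r) (f := f) hK
  obtain ⟨χ, hχ, a, e, t, ha, h1, h2, h3⟩ := exists_irr_chain D.rgd D.gg (by norm_num) c8 hc8 mem_c8
    (N := 8) (z := z8) rfl (by rw [H505.Cop.E8Num.cartan_eq]; exact z8_mod)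
    (by rw [H505.Cop.E8Num.cartan_eq]; exact z8_not) 0 (D.size _) (ns_of hr hf (Or.inr rfl))
  refine ⟨χ, hχ, _, a, t, b, ha, h1, h3.trans (Nat.gcd_dvd_right _ _), ?_⟩
  have h4 := H505.Cop.E8Num.idx_1 hr hf hK
  rw [← range_c8] at h4
  rw [hb, ← h4]
  simp only [Finset.prod_range_succ, Finset.prod_range_zero, one_mul] at h2
  norm_num only at h2
  simp only [pr_cons, pr_nil, pow_one, mul_one]
  generalize (PJ CoxeterMatrix.E₈.toCoxeterSystem hpE8.isCartan (TT chevE8 K) (XX chevE8 8 K) (Set.range c8)).index = idx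
  generalize r ^ f = q at *
  rw [pow_one] at h2
  calc idx * (a * e) * (t * (q ^ 8 - 1) * r ^ b) = a * r ^ b * idx * (e * t) * (q ^ 8 - 1) := by ring
    _ = _ := by rw [h2]; ring

include hr hf hK in
/-- the character of `E₇(q)` for `J = A₆` -/
theorem exists_e7 : ∃ χ : ↥(chevE7.group K) → ℂ, IsIrrCharacter _ χ ∧ ∃ N a t b : ℕ, 0 < a ∧ χ 1 = (N : ℂ) ∧
    t ∣ Nat.gcd 7 (r ^ f - 1) ∧
    N * (t * ((r ^ f) ^ 7 - 1) * r ^ b) = a * Nat.gcd 2 (r ^ f - 1) * Nat.card ↥(chevE7.group K) := by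
  have := finite_group (K := K) chevE7
  have := Fintype.ofFinite ↥(chevE7.group K)
  have D := data_E7_3 hr hf hK
  have := D.fin
  have hb : Nat.gcd 2 (r ^ f - 1) * Nat.card ↥(chevE7.group K) =
      r ^ (f * 63) * pr (r ^ f) [2, 6, 8, 10, 12, 14, 18] := by
    have h3 := Cfsg.Agent.S1064.result hK
    rw [pow_mul]
    simp only [pr_cons, pr_nil]
    rw [h3]
    ring
  obtain ⟨χ, hχ, a, e, t, ha, h1, h2, h3⟩ := exists_irr_chain D.rgd D.gg (by norm_num) c7 hc7 mem_c7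
    (N := 7) (z := z7) rfl (by rw [H505.Cop.E7Num.cartan_eq]; exact z7_mod)
    (by rw [H505.Cop.E7Num.cartan_eq]; exact z7_not) 0 (D.size _) (ns_of hr hf (Or.inl rfl))
  refine ⟨χ, hχ, _, a, t, f * 63, ha, h1, h3, ?_⟩
  have h4 := H505.Cop.E7Num.idx_1 hr hf hK
  rw [← range_c7] at h4
  rw [mul_assoc a, hb, ← h4]
  simp only [Finset.prod_range_succ, Finset.prod_range_zero, one_mul] at h2
  norm_num only at h2
  simp only [pr_cons, pr_nil, pow_one, mul_one]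
  generalize (PJ CoxeterMatrix.E₇.toCoxeterSystem hpE7.isCartan (TT chevE7 K) (XX chevE7 7 K) (Set.range c7)).index = idx
  generalize r ^ (f * 63) = rb
  generalize r ^ f = q at *
  rw [pow_one] at h2
  calc idx * (a * e) * (t * (q ^ 7 - 1) * rb) = a * rb * idx * (e * t) * (q ^ 7 - 1) := by ring
    _ = _ := by rw [h2]; ring

/-- the character of `E₈(q)` or `E₇(q)` for `J` all nodes but `3`, from the `A_1` and `A_n` components -/
theorem exists_big {q l : ℕ} {M : CoxeterMatrix (Fin l)} {A : Fin l → Fin l → ℤ} {h : IsCartan M A} {g : Fin l → ℕ}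
    {S : Type*} [Group S] [Finite S] {T : Subgroup S} {n : Fin l → S} {X : (Fin l → ℤ) → Subgroup S} {r : ℕ}
    {j k₀ k₁ k₂ : Fin l} {K' : Set (Fin l)}
    (D : ExcData r q h g {i | i ≠ j} T n X) (hJ : ({i | i ≠ j} : Set (Fin l)) = {k₀, k₁} ∪ ({k₂} ∪ K'))
    (ho : ∀ i ∈ ({k₀, k₁} : Set (Fin l)), ∀ i' ∈ ({k₂} ∪ K' : Set (Fin l)), M i i' = 2)
    (ho' : ∀ i ∈ ({k₂} : Set (Fin l)), ∀ i' ∈ K', M i i' = 2) (hk : M k₀ k₁ = 3) (hk1 : M k₁ j = 2)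
    (hk0 : M k₀ j = 3 ∨ M k₀ j = 4) (hk2 : M k₂ j = 3)
    (hun : ∀ a b, a ≠ j → b ≠ j → M a b = 3 → (∀ c, c ≠ j → c ≠ a → c ≠ b → M a c = 2 ∧ M b c = 2) →
      (a = k₀ ∧ b = k₁) ∨ (a = k₁ ∧ b = k₀))
    (hq0 : g k₀ = q) (hq2 : g k₂ = q) {m : ℕ} (hm : 2 ≤ m) (k : Fin m ↪ Fin l) (hkm : ∀ i j, M (k i) (k j) = mA m i j)
    (hK' : Set.range k = K') (i₀ : Fin m) (hqm : g (k i₀) = q) :
    ∃ χ : S → ℂ, IsIrrCharacter _ χ ∧ ∃ a d t d' t' d'' t'' : ℕ, 0 < a ∧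
      χ 1 = (((PJ M.toCoxeterSystem h T X {i | i ≠ j}).index * (a * (d * (d' * d''))) : ℕ) : ℂ) ∧
      d * t = (q - 1) * (q ^ 2 - 1) ∧ t ∣ 3 ∧ d' * t' = q - 1 ∧ t' ∣ Nat.gcd 2 (q - 1) ∧
      d'' * t'' = ∏ i ∈ Finset.range m, (q ^ (i + 1) - 1) ∧ t'' ∣ Nat.gcd (m + 1) (q - 1) := by
  classical
  have := D.fin
  have : Fintype S := Fintype.ofFinite S
  subst hK'
  obtain ⟨θ, hθ, hns, d, t, hd, hdt, ht⟩ := ExcIM.in_A2 D hk hq0
  obtain ⟨θ', d', t', hθ', hd', hdt', ht'⟩ := H622.Levi.cusp_node D.rgd k₂ j hk2 ((D.size k₂).trans hq2)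
  obtain ⟨θ'', d'', t'', hθ'', hd'', hdt'', ht''⟩ := H622.Levi.cusp_chain D.rgd hm k hkm i₀ ((D.size _).trans hqm)
  obtain ⟨ψ, hψ, hval⟩ := hθ'.exists_prod D.rgd (orth_of h ho') hθ''
  have hψ1 : ψ 1 = θ' 1 * θ'' 1 := by
    obtain ⟨hab, e⟩ := hval 1 (one_mem _) 1 (one_mem _)
    simp only [mul_one] at e
    exact e
  have hmem : ∀ i, i ∈ ({i | i ≠ j} : Set (Fin l)) ↔ i ≠ j := fun i => Iff.rfl
  have hk0J : k₀ ∈ ({i | i ≠ j} : Set (Fin l)) := by rw [hJ]; simp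
  have hk1J : k₁ ∈ ({i | i ≠ j} : Set (Fin l)) := by rw [hJ]; simp
  obtain ⟨χ, hχ, a, ha0, hχ1⟩ := exists_irr_one D.rgd D.gg hmem hJ (orth_of h ho) rfl
    (isoPair_of h hk0J hk1J hk fun c hc hc0 hc1 => by
      rw [hJ] at hc
      rcases hc with hc | hc
      · rcases hc with rfl | rfl
        · exact absurd rfl hc0
        · exact absurd rfl hc1
      · exact ⟨ho _ (by simp) c hc, ho _ (by simp) c hc⟩)
    (cartan_two h hk1).1 (not_three_dvd h hk0)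
    (fun a b hab => by
      obtain ⟨h1, h2, h3, h4⟩ := of_isoPair h hab
      exact hun a b h1 h2 h3 h4)
    hθ hns hψ
  refine ⟨χ, hχ, a, d, t, d', t', d'', t'', ha0, ?_, hdt, ht, hdt', ht', hdt'', ht''⟩
  rw [hχ1, hψ1, hd, hd', hd'']
  push_cast
  ring

include hr hf hK in
/-- the character of `E₈(q)` for `J = A₂A₁A₄` -/
theorem exists_e8_big : ∃ χ : ↥(chevE8.group K) → ℂ, IsIrrCharacter _ χ ∧ ∃ N a t t' t'' b : ℕ, 0 < a ∧ χ 1 = (N : ℂ) ∧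
    t ∣ 3 ∧ t' ∣ r ^ f - 1 ∧ t'' ∣ r ^ f - 1 ∧
    N * (t * t' * t'' * ((r ^ f) ^ 3 - 1) * ((r ^ f) ^ 2 - 1) * ((r ^ f) ^ 5 - 1) * r ^ b) =
      a * (r ^ f - 1) ^ 2 * Nat.card ↥(chevE8.group K) := by
  have := finite_group (K := K) chevE8
  have D := data_E8_3 hr hf hK
  obtain ⟨b, hb⟩ := card_E8 (r := r) (f := f) hK
  obtain ⟨χ, hχ, a, d, t, d', t', d'', t'', ha, h1, h2, h3, h4, h5, h6, h7⟩ := exists_big D (k₀ := 2) (k₁ := 0)
    (k₂ := 1) compl8 (fun i hi i' hi' => or8a i (by simpa using hi) i' (by simpa using hi'))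
    (fun i hi i' hi' => or8b i (by simpa using hi) i' (by simpa using hi')) (by decide +kernel) (by decide +kernel)
    (by decide +kernel) (by decide +kernel) un8 rfl rfl (by norm_num) k8 hk8 range_k8 0 rfl
  refine ⟨χ, hχ, _, a, t, t', t'', b, ha, h1, h3, h5.trans (Nat.gcd_dvd_right _ _), h7.trans (Nat.gcd_dvd_right _ _), ?_⟩
  have h8 := H505.Cop.E8Num.idx_3 hr hf hK
  rw [hb, ← h8]
  simp only [Finset.prod_range_succ, Finset.prod_range_zero, one_mul] at h6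
  norm_num only at h6
  simp only [pr_cons, pr_nil, pow_one, mul_one]
  generalize (PJ CoxeterMatrix.E₈.toCoxeterSystem hpE8.isCartan (TT chevE8 K) (XX chevE8 8 K) {i | i ≠ 3}).index = idx
  generalize r ^ f = q at *
  rw [pow_one] at h6
  calc idx * (a * (d * (d' * d''))) * (t * t' * t'' * (q ^ 3 - 1) * (q ^ 2 - 1) * (q ^ 5 - 1) * r ^ b) =
      a * r ^ b * idx * (d * t) * (d' * t') * (d'' * t'') * ((q ^ 3 - 1) * (q ^ 2 - 1) * (q ^ 5 - 1)) := by ring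
    _ = _ := by rw [h2, h4, h6]; ring

include hr hf hK in
/-- the character of `E₇(q)` for `J = A₂A₁A₃` -/
theorem exists_e7_big : ∃ χ : ↥(chevE7.group K) → ℂ, IsIrrCharacter _ χ ∧ ∃ N a t t' t'' b : ℕ, 0 < a ∧ χ 1 = (N : ℂ) ∧
    t ∣ 3 ∧ t' ∣ r ^ f - 1 ∧ t'' ∣ r ^ f - 1 ∧
    N * (t * t' * t'' * ((r ^ f) ^ 3 - 1) * ((r ^ f) ^ 2 - 1) * ((r ^ f) ^ 4 - 1) * r ^ b) =
      a * (r ^ f - 1) ^ 2 * Nat.gcd 2 (r ^ f - 1) * Nat.card ↥(chevE7.group K) := by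
  have := finite_group (K := K) chevE7
  have D := data_E7_3 hr hf hK
  have hb : Nat.gcd 2 (r ^ f - 1) * Nat.card ↥(chevE7.group K) =
      r ^ (f * 63) * pr (r ^ f) [2, 6, 8, 10, 12, 14, 18] := by
    have h3 := Cfsg.Agent.S1064.result hK
    rw [pow_mul]
    simp only [pr_cons, pr_nil]
    rw [h3]
    ring
  obtain ⟨χ, hχ, a, d, t, d', t', d'', t'', ha, h1, h2, h3, h4, h5, h6, h7⟩ := exists_big D (k₀ := 2) (k₁ := 0)
    (k₂ := 1) compl7 (fun i hi i' hi' => or7a i (by simpa using hi) i' (by simpa using hi'))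
    (fun i hi i' hi' => or7b i (by simpa using hi) i' (by simpa using hi')) (by decide +kernel) (by decide +kernel)
    (by decide +kernel) (by decide +kernel) un7 rfl rfl (by norm_num) k7 hk7 range_k7 0 rfl
  refine ⟨χ, hχ, _, a, t, t', t'', f * 63, ha, h1, h3, h5.trans (Nat.gcd_dvd_right _ _),
    h7.trans (Nat.gcd_dvd_right _ _), ?_⟩
  have h8 := H505.Cop.E7Num.idx_3 hr hf hK
  rw [mul_assoc (a * (r ^ f - 1) ^ 2), hb, ← h8]
  simp only [Finset.prod_range_succ, Finset.prod_range_zero, one_mul] at h6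
  norm_num only at h6
  simp only [pr_cons, pr_nil, pow_one, mul_one]
  generalize (PJ CoxeterMatrix.E₇.toCoxeterSystem hpE7.isCartan (TT chevE7 K) (XX chevE7 7 K) {i | i ≠ 3}).index = idx
  generalize r ^ (f * 63) = rb
  generalize r ^ f = q at *
  rw [pow_one] at h6
  calc idx * (a * (d * (d' * d''))) * (t * t' * t'' * (q ^ 3 - 1) * (q ^ 2 - 1) * (q ^ 4 - 1) * rb) =
      a * rb * idx * (d * t) * (d' * t') * (d'' * t'') * ((q ^ 3 - 1) * (q ^ 2 - 1) * (q ^ 4 - 1)) := by ring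
    _ = _ := by rw [h2, h4, h6]; ring

include hr hf hK hp in
/-- **`E₈(q)`**, `p ∤ q`, `p ∤ q² - 1`. -/
theorem e8_dz (hpr : p ≠ r) (h2 : ¬ p ∣ (r ^ f) ^ 2 - 1) : HasDZ p ↥(chevE8.group K) := by
  have := finite_group (K := K) chevE8
  have hpr' : ¬ p ∣ r := fun h4 => hpr ((Nat.prime_dvd_prime_iff_eq hp hr).1 h4)
  have h1 : ¬ p ∣ r ^ f - 1 := fun h => h2 (dvd_pow_of (d := 1) (by rwa [pow_one]) (one_dvd 2))
  have hq : 2 ≤ r ^ f := two_le hr hf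
  have hrb : ∀ b, ¬ p ∣ r ^ b := fun b h => hpr' (hp.dvd_of_dvd_pow h)
  by_cases h8 : p ∣ (r ^ f) ^ 8 - 1
  · obtain ⟨χ, hχ, N, a, t, t', t'', b, ha, e1, ht, ht', ht'', e2⟩ := exists_e8_big hr hf hK
    have hq1 : (r ^ f - 1) ^ 2 ≠ 0 := pow_ne_zero _ (by omega)
    have h3' : ¬ p ∣ (r ^ f) ^ 3 - 1 := fun h => h1 (by have := dvd_gcd_pow h8 h; norm_num at this; exact this)
    have h5' : ¬ p ∣ (r ^ f) ^ 5 - 1 := fun h => h1 (by have := dvd_gcd_pow h8 h; norm_num at this; exact this)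
    have hp3 : ¬ p ∣ t := by
      intro h
      have h6 : p = 3 := (Nat.prime_dvd_prime_iff_eq hp Nat.prime_three).1 (h.trans ht)
      subst h6
      -- `3 ∣ q ^ 2 - 1`
      apply h2
      have h7 : ¬ 3 ∣ r ^ f := fun h => hpr' (hp.dvd_of_dvd_pow h)
      generalize r ^ f = q at *
      have h9 : q % 3 = 1 ∨ q % 3 = 2 := by omega
      rcases h9 with h9 | h9
      · have : q ^ 2 % 3 = 1 := by rw [Nat.pow_mod, h9]
        omega
      · have : q ^ 2 % 3 = 1 := by rw [Nat.pow_mod, h9]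
        omega
    refine hasDZ_of' hχ e1 e2 (Nat.mul_ne_zero ha.ne' hq1) ?_
    simp only [hp.dvd_mul, not_or]
    exact ⟨⟨⟨⟨⟨⟨hp3, fun h => h1 (h.trans ht')⟩, fun h => h1 (h.trans ht'')⟩, h3'⟩, h2⟩, h5'⟩, hrb b⟩
  · obtain ⟨χ, hχ, N, a, t, b, ha, e1, ht, e2⟩ := exists_e8 hr hf hK
    refine hasDZ_of' hχ e1 e2 ha.ne' ?_
    simp only [hp.dvd_mul, not_or]
    exact ⟨⟨fun h => h1 (h.trans ht), h8⟩, hrb b⟩

include hr hf hK hp in
/-- **`E₇(q)`**, `p ∤ q`, `p ∤ q - 1`. -/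
theorem e7_dz (hpr : p ≠ r) (h1 : ¬ p ∣ r ^ f - 1) : HasDZ p ↥(chevE7.group K) := by
  have := finite_group (K := K) chevE7
  have hpr' : ¬ p ∣ r := fun h4 => hpr ((Nat.prime_dvd_prime_iff_eq hp hr).1 h4)
  have hq : 2 ≤ r ^ f := two_le hr hf
  have hrb : ∀ b, ¬ p ∣ r ^ b := fun b h => hpr' (hp.dvd_of_dvd_pow h)
  have hg : Nat.gcd 2 (r ^ f - 1) ≠ 0 := by
    intro h
    rw [Nat.gcd_eq_zero_iff] at h
    omega
  by_cases h7 : p ∣ (r ^ f) ^ 7 - 1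
  · obtain ⟨χ, hχ, N, a, t, t', t'', b, ha, e1, ht, ht', ht'', e2⟩ := exists_e7_big hr hf hK
    have hq1 : (r ^ f - 1) ^ 2 ≠ 0 := pow_ne_zero _ (by omega)
    have h2' : ¬ p ∣ (r ^ f) ^ 2 - 1 := fun h => h1 (by have := dvd_gcd_pow h7 h; norm_num at this; exact this)
    have h3' : ¬ p ∣ (r ^ f) ^ 3 - 1 := fun h => h1 (by have := dvd_gcd_pow h7 h; norm_num at this; exact this)
    have h4' : ¬ p ∣ (r ^ f) ^ 4 - 1 := fun h => h1 (by have := dvd_gcd_pow h7 h; norm_num at this; exact this)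
    have hp3 : ¬ p ∣ t := by
      intro h
      have h6 : p = 3 := (Nat.prime_dvd_prime_iff_eq hp Nat.prime_three).1 (h.trans ht)
      subst h6
      apply h2'
      have h7 : ¬ 3 ∣ r ^ f := fun h => hpr' (hp.dvd_of_dvd_pow h)
      generalize r ^ f = q at *
      have h9 : q % 3 = 1 ∨ q % 3 = 2 := by omega
      rcases h9 with h9 | h9
      · have : q ^ 2 % 3 = 1 := by rw [Nat.pow_mod, h9]
        omega
      · have : q ^ 2 % 3 = 1 := by rw [Nat.pow_mod, h9]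
        omega
    refine hasDZ_of' hχ e1 e2 (Nat.mul_ne_zero (Nat.mul_ne_zero ha.ne' hq1) hg) ?_
    simp only [hp.dvd_mul, not_or]
    exact ⟨⟨⟨⟨⟨⟨hp3, fun h => h1 (h.trans ht')⟩, fun h => h1 (h.trans ht'')⟩, h3'⟩, h2'⟩, h4'⟩, hrb b⟩
  · obtain ⟨χ, hχ, N, a, t, b, ha, e1, ht, e2⟩ := exists_e7 hr hf hK
    refine hasDZ_of' hχ e1 e2 (Nat.mul_ne_zero ha.ne' hg) ?_
    simp only [hp.dvd_mul, not_or]
    exact ⟨⟨fun h => h1 (h.trans (ht.trans (Nat.gcd_dvd_right _ _))), h7⟩, hrb b⟩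

include hr hf hK in
/-- **`E₇(q)`**, `q ≡ 3 mod 4`, `p = 2`. -/
theorem e7_dz_two (h3 : r ^ f % 4 = 3) : HasDZ 2 ↥(chevE7.group K) := by
  have := finite_group (K := K) chevE7
  have hr2 : ¬ 2 ∣ r := by
    intro h
    have : 2 ∣ r ^ f := dvd_pow h hf
    omega
  have hg : Nat.gcd 2 (r ^ f - 1) = 2 := Nat.gcd_eq_left (by omega)
  obtain ⟨χ, hχ, N, a, t, b, ha, e1, ht, e2⟩ := exists_e7 hr hf hK
  rw [hg] at e2
  have h7 : (r ^ f) ^ 7 % 4 = 3 := by rw [Nat.pow_mod, h3]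
  obtain ⟨c, hc⟩ : ∃ c, (r ^ f) ^ 7 - 1 = 2 * c := ⟨((r ^ f) ^ 7 - 1) / 2, by omega⟩
  have hc2 : ¬ 2 ∣ c := by omega
  have ht2 : ¬ 2 ∣ t := by
    intro h
    have := (h.trans ht).trans (Nat.gcd_dvd_left _ _)
    omega
  rw [hc] at e2
  have e3 : N * (t * c * r ^ b) = a * Nat.card ↥(chevE7.group K) := by
    apply Nat.eq_of_mul_eq_mul_left (show 0 < 2 by norm_num)
    calc 2 * (N * (t * c * r ^ b)) = N * (t * (2 * c) * r ^ b) := by ring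
      _ = _ := by rw [e2]; ring
  refine hasDZ_of' hχ e1 e3 ha.ne' ?_
  simp only [Nat.prime_two.dvd_mul, not_or]
  exact ⟨⟨ht2, hc2⟩, fun h => hr2 (Nat.prime_two.dvd_of_dvd_pow h)⟩

end split

theorem HasDZ_congr {S : Type*} [Group S] {S' : Type*} [Group S'] (e : S ≃* S') {p : ℕ} (h : HasDZ p S') : HasDZ p S := by
  obtain ⟨χ, hχ⟩ := h
  refine ⟨⟨(χ : S' → ℂ) ∘ e, Core.isIrr_comp e.toMonoidHom e.surjective χ.2⟩, ?_⟩
  rw [Nat.card_congr e.toEquiv, ← hχ]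
  congr 2
  change charDegree ((χ : S' → ℂ) ∘ e) = _
  unfold charDegree
  rw [Function.comp_apply, map_one]

end Cfsg.Agent.H622.Van
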